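import Cfsg.Agent.H0.ES3
import Cfsg.Agent.H0.Sec

/-! Involution centralizers in affine groups over `𝔽₂`. -/

set_option autoImplicit false

open Cfsg Subgroup Module Function
namespace H0.AG
open H19 Multiplicative
open scoped commutatorElement

variable {G : Type*} [Group G]

theorem two {E : Type*} [AddCommGroup E] [Module (ZMod 2) E] (x : E) : x + x = 0 := by
  rw [← two_smul (ZMod 2) x, show (2 : ZMod 2) = 0 from rfl, zero_smul]

theorem trans {E : Type*} [AddCommGroup E] [Module (ZMod 2) E] {a b : E} (ha : a ≠ 0) (hb : b ≠ 0) :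
    ∃ φ : E ≃ₗ[ZMod 2] E, φ a = b := by
  obtain ⟨f, hf⟩ := Projective.exists_dual_eq_one (ZMod 2) ha
  obtain ⟨g, hg⟩ := Projective.exists_dual_eq_one (ZMod 2) hb
  obtain ⟨h, h1, h2⟩ : ∃ h : Dual (ZMod 2) E, h a = 1 ∧ h b = 1 := by
    rcases zmod2_cases (f b) with h | h
    · rcases zmod2_cases (g a) with h' | h'
      exacts [⟨f + g, by simp [*], by simp [*]⟩, ⟨g, h', hg⟩]
    · exact ⟨f, hf, h⟩
  refine ⟨LinearEquiv.transvection (f := h) (v := a + b) (by rw [map_add, h1, h2]; rfl), ?_⟩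
  rw [LinearEquiv.transvection.apply, h1, one_smul, ← add_assoc, two, zero_add]

/-- the conclusion -/
def Concl (n : ℕ) (z : G) (Q : Subgroup G) : Prop :=
  IsExtraspecial 2 Q ∧ #Q = 2 ^ (2 * n + 1) ∧
    (∃ E : Subgroup G, E ≤ Q ∧ IsElementaryAbelian 2 E ∧ #E = 2 ^ (n + 1)) ∧ IsLargeExtraspecial Q ∧
    ∃ K : Subgroup G, K ≤ C[z] ∧ Q ⊓ K = ⊥ ∧ Q ⊔ K = C[z] ∧ Nonempty (K ≃* GL (Fin n) (ZMod 2))

abbrev V (n : ℕ) := ZMod 2 × (Fin n → ZMod 2)

def ext1 (n : ℕ) : ((Fin n → ZMod 2) ≃ₗ[ZMod 2] (Fin n → ZMod 2)) →* (V n ≃ₗ[ZMod 2] V n) :=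
  .mk' (fun A => (LinearEquiv.refl _ _).prodCongr A) fun _ _ => rfl

theorem core [Finite G] {n : ℕ} (hn : 1 ≤ n) {α : Multiplicative (V n) →* G} (hα : Injective α)
    {σ : (V n ≃ₗ[ZMod 2] V n) →* G} (hσ : ∀ φ x, σ φ * α (ofAdd x) * (σ φ)⁻¹ = α (ofAdd (φ x)))
    {z : G} (hz : α (ofAdd (1, 0)) = z) (hC : ∀ g ∈ C[z], ∃ x φ, g = α (ofAdd x) * σ φ) :
    Concl n z (Oc {2} C[z]) := by
  let a : V n → G := fun x => α (ofAdd x)
  have a0 : a 0 = 1 := map_one α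
  have ad : ∀ x y, a (x + y) = a x * a y := fun x y => map_mul α _ _
  have ai : ∀ {x y}, a x = a y ↔ x = y := hα.eq_iff
  have cm : ∀ x y, a x * a y = a y * a x := fun x y => by rw [← ad, add_comm, ad]
  have aa : ∀ x, a x * a x = 1 := fun x => by rw [← ad, two, a0]
  have iv : ∀ x, (a x)⁻¹ = a x := fun x => inv_eq_of_mul_eq_one_right (aa x)
  have cj : ∀ x φ y, a x * σ φ * a y * (a x * σ φ)⁻¹ = a (φ y) := fun x φ y =>
    calc _ = a x * (σ φ * a y * (σ φ)⁻¹) * (a x)⁻¹ := by group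
      _ = _ := by rw [hσ, cm, mul_inv_cancel_right]
  have sw : ∀ φ y, σ φ * a y = a (φ y) * σ φ := fun φ y => mul_inv_eq_iff_eq_mul.1 (hσ φ y)
  have zz : z * z = 1 := hz ▸ aa _
  have mz : ∀ {x}, a x ∈ zpowers z ↔ x.2 = 0 := fun {x} => by
    rw [mem_zpowers_inv zz, ← a0, ← hz, ai, ai]
    rcases x with ⟨c, w⟩
    rcases zmod2_cases c with rfl | rfl <;> simp
  have mc : ∀ {x φ}, a x * σ φ ∈ C[z] ↔ φ (1, 0) = (1, 0) := fun {x φ} => by
    rw [mem_cent1, ← mul_inv_eq_iff_eq_mul, ← hz, cj, ai]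
  let Q : Subgroup G :=
    { carrier := {g | ∃ x φ, g = a x * σ φ ∧ φ (1, 0) = (1, 0) ∧ ∀ y, (φ y).2 = y.2}
      one_mem' := ⟨0, 1, by simp [a0], rfl, fun _ => rfl⟩
      mul_mem' := by
        rintro _ _ ⟨x, φ, rfl, h1, h2⟩ ⟨y, ψ, rfl, h3, h4⟩
        exact ⟨x + φ y, φ * ψ, by rw [ad, map_mul, mul_assoc, mul_assoc, ← mul_assoc (σ φ), sw, mul_assoc],
          by simp [h1, h3], fun u => (h2 _).trans (h4 _)⟩
      inv_mem' := by
        rintro _ ⟨x, φ, rfl, h1, h2⟩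
        exact ⟨φ⁻¹ x, φ⁻¹, by rw [← sw, mul_inv_rev, iv, map_inv], φ.symm_apply_eq.2 h1.symm,
          fun u => by rw [← h2]; simp⟩ }
  have aQ : ∀ x, a x ∈ Q := fun x => ⟨x, 1, by simp, rfl, fun _ => rfl⟩
  have QC : Q ≤ C[z] := by rintro _ ⟨x, φ, rfl, h, -⟩; exact mc.2 h
  have sp : ∀ {φ : V n ≃ₗ[ZMod 2] V n}, (∀ y, (φ y).2 = y.2) → ∀ y, ∃ c : ZMod 2, φ y = y + c • (1, 0) :=
    fun {φ} h y => ⟨(φ y).1 - y.1, Prod.ext (by simp) (by simp [h])⟩
  have tv : ∀ w : Fin n → ZMod 2, w ≠ 0 → ∃ φ : V n ≃ₗ[ZMod 2] V n, σ φ ∈ Q ∧ ∀ c, φ (c, w) ≠ (c, w) :=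
    fun w hw => by
      obtain ⟨f, hf⟩ := Projective.exists_dual_eq_one (ZMod 2) hw
      refine ⟨LinearEquiv.transvection (f := f ∘ₗ .snd _ _ _) (v := (1, 0)) (by simp),
        ⟨0, _, by rw [a0, one_mul], ?_, fun y => ?_⟩, fun c => ?_⟩ <;>
        simp [LinearMap.transvection.apply, hf]
  have ce : ∀ {x φ}, (∀ y, a y * (a x * σ φ) = a x * σ φ * a y) → φ = 1 := fun {x φ} h =>
    LinearEquiv.ext fun y => ai.1 (by rw [← cj x, ← h, mul_inv_cancel_right]; rfl)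
  obtain ⟨w, hw⟩ : ∃ w : Fin n → ZMod 2, w ≠ 0 := ⟨1, fun h => one_ne_zero (congrFun h ⟨0, hn⟩)⟩
  have es : ES Q z := by
    refine ⟨hz ▸ aQ _, fun h => by simpa using ai.1 ((hz.trans h).trans a0.symm), zz, ?_, ?_,
      fun x hx => mem_cent1.1 (QC hx), ?_, ?_⟩
    · rintro _ ⟨x, φ, rfl, h1, h2⟩ _ ⟨y, ψ, rfl, h3, h4⟩
      have : φ * ψ = ψ * φ := LinearEquiv.ext fun u => by
        obtain ⟨c, hc⟩ := sp h2 u
        obtain ⟨d, hd⟩ := sp h4 u
        simp only [LinearEquiv.mul_apply, hc, hd, map_add, map_smul, h1, h3]; abel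
      have e : a x * σ φ * (a y * σ ψ) = a (x + φ y + ψ x + y) * (a y * σ ψ * (a x * σ φ)) := by
        rw [mul_assoc, mul_assoc (a y), ← mul_assoc (σ φ), ← mul_assoc (σ ψ), sw, sw, mul_assoc, mul_assoc,
          ← map_mul, ← map_mul, this, ← mul_assoc, ← mul_assoc, ← mul_assoc, ← ad, ← ad, ← ad]
        congr 2
        linear_combination (exp := 1) - two y - two (ψ x)
      rw [← mem_zpowers_inv zz, commutatorElement_def, mul_assoc, ← mul_inv_rev, e, mul_inv_cancel_right, mz]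
      simp only [Prod.snd_add, h2, h4]
      linear_combination (exp := 1) two x.2 + two y.2
    · rintro _ ⟨x, φ, rfl, h1, h2⟩
      have : φ * φ = 1 := LinearEquiv.ext fun u => by
        obtain ⟨c, hc⟩ := sp h2 u
        rw [LinearEquiv.mul_apply, hc, map_add, map_smul, h1, hc, add_assoc, two, add_zero]; rfl
      rw [← mem_zpowers_inv zz, mul_assoc, ← mul_assoc (σ φ), sw, mul_assoc, ← map_mul, this, map_one,
        mul_one, ← ad, mz, Prod.snd_add, h2, two]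
    · rintro _ ⟨x, φ, rfl, -, -⟩ h
      obtain rfl := ce fun y => (h _ (aQ y)).symm
      rw [← mem_zpowers_inv zz, map_one, mul_one, mz]
      by_contra h1
      obtain ⟨φ, h2, h3⟩ := tv _ h1
      have := h _ h2
      rw [map_one, mul_one, sw, mul_left_inj, ai] at this
      exact h3 _ this.symm
    · obtain ⟨φ, h2, h3⟩ := tv _ hw
      exact ⟨_, h2, _, aQ (0, w), fun h => h3 0 (ai.1 (by rwa [sw, mul_left_inj] at h))⟩
  have nQ : C[z] ≤ N(Q) := fun g hg => by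
    obtain ⟨x, ψ, rfl⟩ := hC g hg
    refine mul_mem (le_normalizer (aQ x)) (mem_normalizer_fintype ?_)
    rintro _ ⟨y, φ, rfl, h1, h2⟩
    have h := mc.1 hg
    refine ⟨ψ y, ψ * φ * ψ⁻¹, by rw [show a (ψ y) = _ from (hσ ψ y).symm, map_mul, map_mul, map_inv]; simp [a, mul_assoc], ?_, fun u => ?_⟩
    · have : ψ⁻¹ (1, 0) = (1, 0) := ψ.symm_apply_eq.2 h.symm
      simp only [LinearEquiv.mul_apply, this, h1, h]
    · obtain ⟨c, hc⟩ := sp h2 (ψ⁻¹ u)
      simp only [LinearEquiv.mul_apply, hc, map_add, map_smul, h]; simp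
  have cU : ∀ g ∈ C[z], (∀ y, a y * g = g * a y) → ∃ x, g = a x := fun g hg h => by
    obtain ⟨x, φ, rfl⟩ := hC g hg
    exact ⟨x, by rw [ce h, map_one, mul_one]⟩
  have le : LE Q z := ⟨es, fun g hg => by
    obtain ⟨x, rfl⟩ := cU g (mem_cent1.2 (hg z es.zQ).symm) fun y => hg _ (aQ y); exact aQ x, nQ⟩
  let τ := σ.comp (ext1 n)
  have tσ : ∀ A c u, τ A * a (c, u) = a (c, A u) * τ A := fun A c u => sw _ _
  have t1 : ∀ {A}, (∀ u, τ A * a (0, u) = a (0, u) * τ A) → A = 1 := fun {A} h =>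
    LinearEquiv.ext fun u => by simpa [tσ, ai] using h u
  have KC : τ.range ≤ C[z] := by rintro _ ⟨A, rfl⟩; rw [mem_cent1, ← hz, tσ, map_zero]
  have dec : ∀ g ∈ C[z], ∃ q ∈ Q, ∃ A, g = q * τ A := fun g hg => by
    obtain ⟨x, φ, rfl⟩ := hC g hg
    have h := mc.1 hg
    have e : ∀ c u, φ (c, u) = (c, 0) + φ (0, u) := fun c u => by
      rw [show (c, u) = c • ((1, 0) : V n) + (0, u) by simp, map_add, map_smul, h]; simp
    let B := LinearEquiv.ofInjectiveEndo (.snd _ _ _ ∘ₗ φ.toLinearMap ∘ₗ .inr (ZMod 2) _ _)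
      ((injective_iff_map_eq_zero _).2 fun u hu => by
        have : φ (0, u) = φ ((φ (0, u)).1, 0) := by
          rw [e (φ (0, u)).1 0, ← Prod.zero_eq_mk, map_zero, add_zero]; exact Prod.ext rfl hu
        exact congrArg Prod.snd (φ.injective this))
    refine ⟨_, ⟨x, φ * (ext1 n B)⁻¹, rfl, ?_, fun ⟨c, u⟩ => ?_⟩, B, ?_⟩
    · rw [← map_inv]; change φ (1, B⁻¹ 0) = _; rwa [map_zero]
    · rw [← map_inv]
      change (φ (c, B.symm u)).2 = u
      rw [e, Prod.snd_add, zero_add]; exact B.apply_symm_apply u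
    · simp [τ, a, mul_assoc]
  have QK : ∀ A, τ A ∈ Q → A = 1 := by
    rintro A ⟨x, φ, h, -, h2⟩
    refine LinearEquiv.ext fun u => ?_
    have := cj x φ (0, u)
    rw [← h, tσ, mul_inv_cancel_right, ai] at this
    exact (congrArg Prod.snd this).trans (h2 _)
  have pU : PG 2 α.range := es.pg.of_le (by rintro _ ⟨x, rfl⟩; exact aQ _)
  have hO : Oc {2} C[z] = Q := le_antisymm (fun g hg => by
    obtain ⟨q, hq, A, rfl⟩ := dec g (Oc_le _ _ hg)
    let R := Oc {2} C[z] ⊓ τ.range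
    let W := (α.comp (AddMonoidHom.inr (ZMod 2) (Fin n → ZMod 2)).toMultiplicative).range
    have hW : τ.range ≤ N(W) := by
      rintro _ ⟨B, rfl⟩
      refine mem_normalizer_fintype ?_
      rintro _ ⟨u, rfl⟩
      exact ⟨ofAdd (B u.toAdd), (mul_inv_eq_iff_eq_mul.2 (tσ B 0 _)).symm⟩
    obtain ⟨_, ⟨⟨u, rfl⟩, h1⟩, h2⟩ := exists_ne_one ((pU.of_le (show W ≤ _ by
      rintro _ ⟨u, rfl⟩; exact ⟨_, rfl⟩)).meet_cent ((Oc_pi {2} C[z]).infl τ.range) (inf_le_right.trans hW)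
      (ne_bot_of_mem (x := a (0, w)) ⟨ofAdd w, rfl⟩ fun h => hw (congrArg Prod.snd (ai.1 (h.trans a0.symm)))))
    have hA : τ A ∈ R := ⟨(mul_mem_cancel_left (le.le_Oc hq)).1 hg, A, rfl⟩
    obtain rfl : A = 1 := t1 fun v => by
      by_cases hv : v = 0
      · rw [hv, ← Prod.zero_eq_mk, a0, mul_one, one_mul]
      obtain ⟨B, hB⟩ := trans (a := u.toAdd) (fun h => h2 ((congrArg (fun t => a (0, t)) h).trans a0)) hv
      have := conj_mem_of_norm (norm_le_norm_cent R (norms_inf (KC.trans (Oc_norm _ _)) le_normalizer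
        ⟨B, rfl⟩)) h1
      rw [show τ B * _ * (τ B)⁻¹ = a (0, v) from mul_inv_eq_iff_eq_mul.2 (hB ▸ tσ B 0 _)] at this
      exact this _ hA
    rwa [map_one, mul_one]) le.le_Oc
  have cU' : #α.range = 2 ^ (n + 1) := by
    rw [← Nat.card_congr (MonoidHom.ofInjective hα).toEquiv]; simp [pow_succ']
  have UQ : α.range ≤ Q := by rintro _ ⟨x, rfl⟩; exact aQ _
  obtain ⟨φ, hφ⟩ := trans (a := ((1, 0) : V n)) (b := (0, w)) (by simp) (by simpa using hw)
  have hφ : σ φ * z * (σ φ)⁻¹ = a (0, w) := by rw [← hz, hσ, hφ]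
  rw [hO]
  refine ⟨es.extraspecial, ?_, ⟨_, UQ, ⟨⟨⟨?_⟩⟩, ?_⟩, cU'⟩, le.large_of_conj (hφ ▸ aQ _)
    (by rw [hφ, ← hz]; exact fun h => by simpa using ai.1 h), τ.range, KC, eq_bot_iff.2 ?_,
    le_antisymm (sup_le QC KC) fun g hg => ?_, ⟨(MonoidHom.ofInjective ?_).symm.trans
      (Matrix.GeneralLinearGroup.toLin.trans (LinearMap.GeneralLinearGroup.generalLinearEquiv _ _)).symm⟩⟩
  · have := es.card_cent (A := α.range) ⟨_, hz⟩ UQ
    rw [show Q ⊓ C(α.range) = α.range from le_antisymm (fun g hg => by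
      obtain ⟨x, rfl⟩ := cU g (QC hg.1) fun y => hg.2 _ ⟨_, rfl⟩; exact ⟨_, rfl⟩)
      (le_inf UQ (by rintro _ ⟨x, rfl⟩ _ ⟨y, rfl⟩; exact cm _ _)), cU'] at this
    exact Nat.eq_of_mul_eq_mul_left two_pos (by rw [← this]; ring)
  · rintro ⟨_, x, rfl⟩ ⟨_, y, rfl⟩; exact Subtype.ext (cm _ _)
  · rintro _ ⟨x, rfl⟩; exact (sq _).trans (aa _)
  · rintro _ ⟨h, A, rfl⟩; rw [QK A h, map_one]; exact one_mem _
  · obtain ⟨q, hq, A, rfl⟩ := dec g hg; exact mul_mem_sup hq ⟨A, rfl⟩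
  · exact (injective_iff_map_eq_one _).2 fun A h => QK A (h ▸ one_mem Q)

theorem core' [Finite G] {n : ℕ} (hn : 1 ≤ n) {E : Type*} [AddCommGroup E] [Module (ZMod 2) E]
    (hd : finrank (ZMod 2) E = n + 1) {α : Multiplicative E →* G} (hα : Injective α)
    {σ : (E ≃ₗ[ZMod 2] E) →* G} (hσ : ∀ φ x, σ φ * α (ofAdd x) * (σ φ)⁻¹ = α (ofAdd (φ x)))
    {v : E} (hv : v ≠ 0) {z : G} (hz : α (ofAdd v) = z)
    (hC : ∀ g ∈ C[z], ∃ x φ, g = α (ofAdd x) * σ φ) : Concl n z (Oc {2} C[z]) := by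
  have := Module.finite_of_finrank_eq_succ hd
  let e₀ := LinearEquiv.ofFinrankEq (R := ZMod 2) (V n) E (by simp [hd, add_comm])
  obtain ⟨e₁, h⟩ := trans (a := e₀ (1, 0)) (by simp) hv
  let e := e₀.trans e₁
  refine core hn (α := α.comp e.toAddEquiv.toAddMonoidHom.toMultiplicative) (hα.comp e.injective)
    (σ := σ.comp (.mk' (fun φ => e.symm.trans (φ.trans e)) fun φ ψ => by ext; simp))
    (fun φ x => (hσ _ (e x)).trans (by simp)) (by subst h; exact hz) fun g hg => ?_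
  obtain ⟨x, φ, rfl⟩ := hC g hg
  exact ⟨e.symm x, e.trans (φ.trans e.symm), by simp; congr 1; ext; simp⟩

theorem core_sub [Finite G] {n : ℕ} (hn : 1 ≤ n) {U M : Subgroup G} (hU : IsElementaryAbelian 2 U)
    (hc : #U = 2 ^ (n + 1)) (hN : M ≤ N(U)) (hf : ∀ m ∈ M, (∀ u ∈ U, m * u * m⁻¹ = u) → m = 1)
    (hs : (∀ φ : U ≃* U, ∃ m ∈ M, ∀ u : U, (φ u : G) = m * u * m⁻¹) ∨
      Nat.card (GL (Fin (n + 1)) (ZMod 2)) ≤ #M)
    {z : G} (hz : z ∈ U) (h1 : z ≠ 1) (hC : C[z] ≤ U ⊔ M) : Concl n z (Oc {2} C[z]) := by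
  have cm : ∀ x ∈ U, ∀ y ∈ U, x * y = y * x := fun x hx y hy =>
    congrArg Subtype.val (hU.1.1.1 ⟨x, hx⟩ ⟨y, hy⟩)
  let _ : CommGroup U := { mul_comm := hU.1.1.1 }
  let _ : Module (ZMod 2) (Additive U) := AddCommGroup.zmodModule fun x =>
    Subtype.ext (hU.2 _ x.toMul.2)
  have hd : finrank (ZMod 2) (Additive U) = n + 1 := by
    have := Module.natCard_eq_pow_finrank (K := ZMod 2) (V := Additive U)
    rw [Nat.card_zmod, show Nat.card (Additive U) = _ from hc] at this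
    exact (Nat.pow_right_injective le_rfl this).symm
  let L : (U ≃* U) ≃* (Additive U ≃ₗ[ZMod 2] Additive U) :=
    { toFun φ := { φ.toAdditive with map_smul' := ZMod.map_smul φ.toAdditive }
      invFun φ := φ.toAddEquiv.toMultiplicative
      map_mul' _ _ := rfl }
  let ρ : M →* (U ≃* U) := U.normalizerMonoidHom.comp (inclusion hN)
  have hi : Injective ρ := (injective_iff_map_eq_one _).2 fun m h => Subtype.ext
    (hf _ m.2 fun u hu => (congrArg Subtype.val (DFunLike.congr_fun h ⟨u, hu⟩) :))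
  have := Module.finite_of_finrank_eq_succ hd
  have hb : Bijective ρ := ⟨hi, hs.elim (fun h φ => by
    obtain ⟨m, hm, e⟩ := h φ; exact ⟨⟨m, hm⟩, by ext u; exact (e u).symm⟩) fun h =>
      ((Nat.bijective_iff_injective_and_card _).2 ⟨hi, le_antisymm (Nat.card_le_card_of_injective _ hi) (by
        rwa [Nat.card_congr (L.trans ((LinearMap.GeneralLinearGroup.generalLinearEquiv _ _).symm.trans
          (Matrix.GeneralLinearGroup.toLin' (finBasisOfFinrankEq _ _ hd)).symm)).toEquiv])⟩).2⟩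
  let r := (MulEquiv.ofBijective ρ hb).trans L
  have k : ∀ (m : M) x, (m : G) * U.subtype x * (m : G)⁻¹ = U.subtype (r m x) := fun _ _ => rfl
  refine core' hn hd (α := U.subtype) U.subtype_injective (σ := M.subtype.comp r.symm.toMonoidHom)
    (fun φ x => (k _ x).trans (by simp; rfl)) (v := .ofMul ⟨z, hz⟩) (fun h => h1 (congrArg Subtype.val h)) rfl
    fun g hg => ?_
  obtain ⟨u, hu, m, hm, rfl⟩ := (coe_mul_of_right_le_normalizer_left U M hN).subset (hC hg)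
  exact ⟨.ofMul ⟨u, hu⟩, r ⟨m, hm⟩, by simp; rfl⟩

end H0.AG
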