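import Cfsg.Agent.H0.AG.A

/-! The special linear form of the conclusion. -/

set_option autoImplicit false

open Cfsg Subgroup Function
namespace H0.AG
open H19

theorem det_one {ι : Type*} [Fintype ι] [DecidableEq ι] {A : Matrix ι ι (ZMod 2)} (h : IsUnit A.det) :
    A.det = 1 := (zmod2_cases _).resolve_left h.ne_zero

theorem gl_sl (n : ℕ) : Nonempty (GL (Fin n) (ZMod 2) ≃* Matrix.SpecialLinearGroup (Fin n) (ZMod 2)) :=
  ⟨(MulEquiv.ofBijective Matrix.SpecialLinearGroup.toGL ⟨Matrix.SpecialLinearGroup.toGL_injective,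
    fun A => ⟨⟨A, det_one (A := A.1) A.det.isUnit⟩, Units.ext rfl⟩⟩).symm⟩

theorem Concl.sl {G : Type*} [Group G] [Finite G] {n : ℕ} {z : G} (h : Concl n z (Oc {2} C[z]))
    {Q : Subgroup G} (hQ : Q = (pCore 2 C[z]).map C[z].subtype) : IsExtraspecial 2 Q ∧ #Q = 2 ^ (2 * n + 1) ∧
    (∃ E : Subgroup G, E ≤ Q ∧ IsElementaryAbelian 2 E ∧ #E = 2 ^ (n + 1)) ∧ IsLargeExtraspecial Q ∧
    ∃ K : Subgroup G, K ≤ C[z] ∧ Q ⊓ K = ⊥ ∧ Q ⊔ K = C[z] ∧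
      Nonempty (K ≃* Matrix.SpecialLinearGroup (Fin n) (ZMod 2)) := by
  rw [hQ, pCore_map_eq Nat.prime_two]
  obtain ⟨h1, h2, h3, h4, K, h5, h6, h7, ⟨e⟩⟩ := h
  exact ⟨h1, h2, h3, h4, K, h5, h6, h7, ⟨e.trans (gl_sl n).some⟩⟩

end H0.AG
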