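import Cfsg.Agent.H0.AG.B

/-! The centralizer of a transvection over `𝔽₂`. -/

set_option autoImplicit false

open Cfsg Subgroup Function Matrix
namespace H0.AG
open H19 Multiplicative

variable {m : ℕ}

def blk (a : Fin m → ZMod 2) (B : Matrix (Fin m) (Fin m) (ZMod 2)) :
    Matrix (Fin (m + 1)) (Fin (m + 1)) (ZMod 2) :=
  .of (Fin.cons (Fin.cons 1 a) fun i => Fin.cons 0 (B i))

theorem blk_mul (a b : Fin m → ZMod 2) (A B : Matrix (Fin m) (Fin m) (ZMod 2)) :
    blk a A * blk b B = blk (b + a ᵥ* B) (A * B) := by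
  ext i j
  refine Fin.cases ?_ (fun i => ?_) i <;> refine Fin.cases ?_ (fun j => ?_) j <;>
    simp [blk, mul_apply, Fin.sum_univ_succ, vecMul, dotProduct]

theorem det_blk (a : Fin m → ZMod 2) (A : Matrix (Fin m) (Fin m) (ZMod 2)) : (blk a A).det = A.det := by
  rw [det_succ_column_zero, Fin.sum_univ_succ]
  simp [blk]
  rfl

def rm (φ : (Fin m → ZMod 2) ≃ₗ[ZMod 2] (Fin m → ZMod 2)) : Matrix (Fin m) (Fin m) (ZMod 2) :=
  LinearMap.toMatrixRight' φ.symm.toLinearMap

theorem vec_rm (φ : (Fin m → ZMod 2) ≃ₗ[ZMod 2] (Fin m → ZMod 2)) (x : Fin m → ZMod 2) :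
    x ᵥ* rm φ = φ.symm x :=
  LinearMap.congr_fun (LinearMap.toMatrixRight'.symm_apply_apply φ.symm.toLinearMap) x

theorem rm_mul (φ ψ : (Fin m → ZMod 2) ≃ₗ[ZMod 2] (Fin m → ZMod 2)) : rm (φ * ψ) = rm φ * rm ψ :=
  LinearMap.toMatrixRight'_comp φ.symm.toLinearMap ψ.symm.toLinearMap

theorem det_rm (φ : (Fin m → ZMod 2) ≃ₗ[ZMod 2] (Fin m → ZMod 2)) : (rm φ).det = 1 :=
  det_one (isUnit_det_of_right_inverse ((rm_mul φ φ⁻¹).symm.trans (by
    rw [mul_inv_cancel]; exact LinearMap.toMatrixRight'_id)))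

theorem tv {n : ℕ} (hn : 1 ≤ n) {z : SpecialLinearGroup (Fin (n + 2)) (ZMod 2)}
    (hz : z.1 = transvection 0 1 1) : Concl n z (Oc {2} C[z]) := by
  let G := SpecialLinearGroup (Fin (n + 2)) (ZMod 2)
  let α : Multiplicative (Fin (n + 1) → ZMod 2) →* G := .mk' (fun x => (⟨blk x.toAdd 1, by simp [det_blk]⟩ : G))
    fun x y => Subtype.ext (show blk _ _ = blk _ _ * blk _ _ by simp [blk_mul, add_comm])
  let σ : ((Fin (n + 1) → ZMod 2) ≃ₗ[ZMod 2] (Fin (n + 1) → ZMod 2)) →* G :=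
    .mk' (fun φ => (⟨blk 0 (rm φ), by rw [det_blk, det_rm]⟩ : G))
      fun x y => Subtype.ext (show blk _ _ = blk _ _ * blk _ _ by simp [blk_mul, rm_mul])
  refine core' hn (by simp) (α := α) (fun x y h => funext fun i => ?_) (σ := σ)
    (fun φ x => mul_inv_eq_iff_eq_mul.2 (Subtype.ext (show blk _ _ * blk _ _ = blk _ _ * blk _ _ from ?_)))
    (v := Pi.single 0 1) (by simp) (Subtype.ext ((show blk _ _ = _ from ?_).trans hz.symm)) fun g hg => ?_
  · exact congrFun (congrFun (congrArg Subtype.val h) 0) i.succ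
  · simp [blk_mul, vec_rm]
  · ext i j
    rw [transvection, Matrix.add_apply, one_apply, single_apply]
    refine Fin.cases ?_ (fun i => ?_) i <;> refine Fin.cases ?_ (fun j => ?_) j
    · simp [blk]
    · refine Fin.cases ?_ (fun j => ?_) j <;> simp [blk, Fin.ext_iff]
    · simp [blk]
    · simp [blk, one_apply, (Fin.succ_ne_zero i).symm]
  · have h : g.1 * transvection 0 1 1 = transvection 0 1 1 * g.1 := by
      rw [← hz]; exact congrArg (fun x : G => x.1) (mem_cent1.1 hg)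
    have h0 : ∀ i : Fin (n + 1), g.1 i.succ 0 = 0 := fun i => by
      simpa [transvection_mul_apply_of_ne _ _ _ _ i.succ_ne_zero] using congrFun (congrFun h i.succ) 1
    have hd := g.2
    rw [det_succ_column_zero, Fin.sum_univ_succ] at hd
    simp only [h0, mul_zero, zero_mul, Finset.sum_const_zero, add_zero, Fin.val_zero, pow_zero, one_mul,
      Fin.succAbove_zero] at hd
    have h1 := isUnit_of_mul_isUnit_right (hd ▸ isUnit_one)
    have := invertibleOfIsUnitDet _ h1
    let φ := (toLinearEquivRight'OfInv (mul_invOf_self (g.1.submatrix Fin.succ Fin.succ)) (invOf_mul_self _))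
    have e : rm φ = g.1.submatrix Fin.succ Fin.succ := LinearMap.toMatrixRight'.apply_symm_apply _
    refine ⟨φ fun j => g.1 0 j.succ, φ, Subtype.ext (show g.1 = blk _ _ * blk _ _ from ?_)⟩
    ext i j
    refine Fin.cases ?_ (fun i => ?_) i <;> refine Fin.cases ?_ (fun j => ?_) j <;>
      simp [blk_mul, vec_rm] <;> simp [blk, e, h0]
    rwa [det_one h1, mul_one] at hd

end H0.AG
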